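import Mathlib
import Cfsg.Agent.Lib.ChDeg.Avg

/-! Groups with average character degree at most two: character theory. -/

set_option autoImplicit false
set_option linter.unusedSectionVars false

namespace CfsgLib.Acd

open Subgroup Cfsg CfsgLib.Char CfsgLib.ChDeg Finset
open scoped commutatorElement

/-- the average degree of the irreducible characters is at most two -/
def AP (K : Type*) [Group K] : Prop :=
  (∑ᶠ χ : IrrCharacter K, charDegree (χ : K → ℂ)) ≤ 2 * Nat.card (IrrCharacter K)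

variable {K : Type*} [Group K] [Finite K]

/-- degree minus two -/
noncomputable def ex (χ : IrrCharacter K) : ℤ := (charDegree (χ : K → ℂ) : ℤ) - 2

theorem ap_iff : AP K ↔ ∑ χ : IrrCharacter K, ex χ ≤ 0 := by
  rw [AP, finsum_eq_sum_of_fintype, Nat.card_eq_fintype_card, ← Nat.cast_le (α := ℤ)]
  simp only [ex, sum_sub_distrib, sum_const, card_univ]
  push_cast
  simp only [nsmul_eq_mul]
  constructor <;> intro h <;> linarith

theorem ex_nonneg {χ : IrrCharacter K} (h : (χ : K → ℂ) 1 ≠ 1) : 0 ≤ ex χ := by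
  have h1 := deg_pos χ.2
  have h2 := mt (deg_eq_one_iff (irr_isCharacter χ)).1 h
  rw [ex]; omega

theorem AP.of_surjective {L : Type*} [Group L] [Finite L] (h : AP K) (f : K →* L)
    (hf : Function.Surjective f) : AP L := by
  classical
  let r : (K →* ℂˣ) → (f.ker →* ℂˣ) := fun l => l.comp f.ker.subtype
  let s := Set.rangeSplitting r
  have hs : ∀ (c : Set.range r) (g : f.ker), s c g = c.1 g := fun c g =>
    DFunLike.congr_fun (Set.apply_rangeSplitting r c) g
  let Φ : Set.range r × IrrCharacter L → IrrCharacter K := fun x =>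
    ⟨(fun g => (x.2 : L → ℂ) (f g)) * fun g => (s x.1 g : ℂ),
      isIrr_mul_of_one_eq_one (isIrr_comp_of_surjective f hf x.2.2)
        (isCharacter_of_isIrr (isIrr_unitsHom _)) (by simp)⟩
  have hΦ : ∀ x g, (Φ x : K → ℂ) g = (x.2 : L → ℂ) (f g) * s x.1 g := fun _ _ => rfl
  have inj : Function.Injective Φ := by
    rintro ⟨c, ψ⟩ ⟨c', ψ'⟩ e
    have e1 : ∀ g, (ψ : L → ℂ) (f g) * s c g = (ψ' : L → ℂ) (f g) * s c' g := fun g => by
      rw [← hΦ (c, ψ), e, hΦ]
    have e2 : (ψ : L → ℂ) 1 = (ψ' : L → ℂ) 1 := by simpa using e1 1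
    obtain rfl : c = c' := Subtype.ext (MonoidHom.ext fun g => Units.ext (by
      have := e1 g
      rw [MonoidHom.mem_ker.1 g.2, e2, hs, hs] at this
      exact mul_left_cancel₀ (irr_one_ne_zero ψ'.2) this))
    refine Prod.ext rfl (Subtype.ext (funext fun y => ?_))
    obtain ⟨g, rfl⟩ := hf y
    exact mul_right_cancel₀ (Units.ne_zero _) (e1 g)
  have : Finite (Set.range r) := Finite.of_injective (fun c => Φ (c, irrOne L))
    fun _ _ e => congrArg Prod.fst (inj e)
  have := Fintype.ofFinite (Set.range r)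
  have h1 : ∑ χ ∈ univ.image Φ, ex χ ≤ ∑ χ : IrrCharacter K, ex χ := by
    refine sum_le_sum_of_subset_of_nonneg (subset_univ _) fun χ _ hn => ex_nonneg fun e => hn ?_
    obtain ⟨l, hl⟩ := exists_unitsHom_of_one_eq_one (irr_isCharacter χ) e
    obtain ⟨ψ, hψ, e1⟩ := exists_irr_comp_eq f hf (isIrr_unitsHom (l / s ⟨_, l, rfl⟩)) fun g hg => by
      have : s ⟨_, l, rfl⟩ g = l g := hs _ ⟨g, hg⟩
      simp [this]
    refine mem_image.2 ⟨(⟨_, l, rfl⟩, ⟨ψ, hψ⟩), mem_univ _, Subtype.ext (funext fun g => ?_)⟩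
    rw [hΦ, hl]
    simp [e1]
  have h2 : ∀ x, ex (Φ x) = ex x.2 := fun x => by
    rw [ex, ex, deg_congr (ψ := (x.2 : L → ℂ)) (by rw [hΦ]; simp)]
  rw [sum_image fun _ _ _ _ e => inj e, Fintype.sum_prod_type] at h1
  simp only [h2, sum_const, card_univ, nsmul_eq_mul] at h1
  have h3 : (0 : ℤ) < Fintype.card (Set.range r) := by
    have : Nonempty (Set.range r) := ⟨⟨_, 1, rfl⟩⟩
    exact_mod_cast Fintype.card_pos
  exact ap_iff.2 (nonpos_of_mul_nonpos_right (h1.trans (ap_iff.1 h)) h3)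

theorem AP.of_equiv {L : Type*} [Group L] (h : AP K) (e : K ≃* L) : AP L :=
  have := Finite.of_equiv _ e.toEquiv
  h.of_surjective e.toMonoidHom e.surjective

/-- the excess of the non-linear characters is bounded by the number of linear characters -/
theorem AP.sum_le (h : AP K) (X : Finset (IrrCharacter K)) (hX : ∀ χ ∈ X, (χ : K → ℂ) 1 ≠ 1) :
    ∑ χ ∈ X, ex χ ≤ (_root_.commutator K).index := by
  classical
  have h1 := ap_iff.1 h
  rw [← sum_filter_add_sum_filter_not _ fun χ : IrrCharacter K => (χ : K → ℂ) 1 = 1,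
    sum_congr rfl (g := fun _ => -1) fun χ hχ => by
      rw [ex, (deg_eq_one_iff (irr_isCharacter χ)).2 (mem_filter.1 hχ).2]; rfl] at h1
  have h2 := sum_le_sum_of_subset_of_nonneg (f := ex) (s := X)
    (t := univ.filter fun χ : IrrCharacter K => ¬ (χ : K → ℂ) 1 = 1)
    (fun χ hχ => mem_filter.2 ⟨mem_univ _, hX χ hχ⟩) fun χ hχ _ => ex_nonneg (mem_filter.1 hχ).2
  rw [← card_linear_irr, Nat.card_eq_fintype_card, Fintype.card_subtype]
  simp only [sum_const, nsmul_eq_mul] at h1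
  linarith

theorem AP.card_le (h : AP K) {n : ℕ} (hn : (_root_.commutator K).index ≤ n) :
    Nat.card K ≤ 4 * Nat.card (ConjClasses K) + n + n ^ 2 := by
  classical
  have h1 := h.sum_le (univ.filter fun χ : IrrCharacter K => ¬ (χ : K → ℂ) 1 = 1)
    fun χ hχ => (mem_filter.1 hχ).2
  have h2 := sum_sq_le_sq_sum_of_nonneg (f := ex)
    (s := univ.filter fun χ : IrrCharacter K => ¬ (χ : K → ℂ) 1 = 1)
    fun χ hχ => ex_nonneg (mem_filter.1 hχ).2
  have h0 := sum_nonneg (f := ex) (s := univ.filter fun χ : IrrCharacter K => ¬ (χ : K → ℂ) 1 = 1)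
    fun χ hχ => ex_nonneg (mem_filter.1 hχ).2
  have h3 : (Nat.card K : ℤ) = ∑ χ : IrrCharacter K, (ex χ ^ 2 + 4 * ex χ + 4) := by
    rw [← sum_deg_sq]; push_cast
    exact sum_congr rfl fun χ _ => by rw [ex]; ring
  rw [← sum_filter_add_sum_filter_not _ fun χ : IrrCharacter K => (χ : K → ℂ) 1 = 1,
    sum_congr rfl (g := fun _ => 1) fun χ hχ => by
      rw [ex, (deg_eq_one_iff (irr_isCharacter χ)).2 (mem_filter.1 hχ).2]; rfl] at h3
  have h4 := card_filter_add_card_filter_not (s := univ) fun χ : IrrCharacter K => (χ : K → ℂ) 1 = 1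
  have h5 := card_linear_irr (G := K)
  rw [Nat.card_eq_fintype_card, Fintype.card_subtype] at h5
  rw [card_univ, ← Nat.card_eq_fintype_card, card_irr_eq_card_conjClasses, h5] at h4
  simp only [sum_add_distrib, ← mul_sum, sum_const, nsmul_eq_mul, h5] at h3
  zify at h4 hn ⊢
  nlinarith

/-- `x` acts without fixed points on `W` -/
def Fp (W : Subgroup K) (x : K) : Prop := ∀ w ∈ W, x * w = w * x → w = 1

theorem Fp.exists_eq {W : Subgroup K} {x : K} (h : Fp W x) (hn : x ∈ normalizer (W : Set K)) {n : K}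
    (hW : n ∈ W) : ∃ w ∈ W, w * x * w⁻¹ * x⁻¹ = n := by
  let φ : W → W := fun w => ⟨w * x * (w : K)⁻¹ * x⁻¹, by
    rw [mul_assoc, mul_assoc, ← mul_assoc x]
    exact mul_mem w.2 ((mem_normalizer_iff.1 hn _).1 (inv_mem w.2))⟩
  have inj : Function.Injective φ := fun a b e => by
    have e1 : (a : K) * x * (a : K)⁻¹ = b * x * (b : K)⁻¹ := mul_right_cancel (congrArg Subtype.val e)
    have := h _ (mul_mem (inv_mem b.2) a.2) (by
      rw [mul_assoc, eq_mul_of_mul_inv_eq e1]; group)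
    exact Subtype.ext (inv_mul_eq_one.1 this).symm
  obtain ⟨w, e⟩ := Finite.injective_iff_surjective.1 inj ⟨n, hW⟩
  exact ⟨w, w.2, congrArg Subtype.val e⟩

theorem card_dvd_deg {W H : Subgroup K} [W.Normal] (h : ∀ x ∈ H, x ≠ 1 → Fp W x) {χ : K → ℂ}
    (hχ : IsIrrCharacter K χ) (hW : ¬ W ≤ cker χ) : Nat.card H ∣ charDegree χ := by
  have := Fintype.ofFinite H
  obtain ⟨n, hn⟩ := exists_classInner_eq_nat (isCharacter_restrict H (isCharacter_of_isIrr hχ))
    isCharacter_one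
  rw [classInner_def, sum_eq_single 1 (fun x _ hx => ?_) (by simp)] at hn
  · refine ⟨n, Nat.cast_injective (R := ℂ) ?_⟩
    rw [deg_cast (isCharacter_of_isIrr hχ), Nat.cast_mul, ← hn, mul_inv_cancel_left₀ natCard_ne_zero]
    simp
  · rw [eq_zero_of_forall_isConj hχ W hW fun m hm => ?_, zero_mul]
    obtain ⟨w, -, e⟩ := (h x x.2 (by simpa using hx)).exists_eq (W.normalizer_eq_top ▸ mem_top _) hm
    exact isConj_iff.2 ⟨w, eq_mul_of_mul_inv_eq e⟩

/-- the main inequality -/
theorem AP.frob (hK : AP K) {W H : Subgroup K} [W.Normal] (h : ∀ x ∈ H, x ≠ 1 → Fp W x) (hW : W ≠ ⊥)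
    (h2 : 2 ≤ Nat.card H) {n : ℕ} (hn : (_root_.commutator K).index ≤ n) :
    ∃ c : ℕ, 1 ≤ c ∧ c * Nat.card H ≤ n + 2 * c ∧
      (n + 2 < 2 * Nat.card H → c * Nat.card H ^ 2 + W.index = W.index * Nat.card W) := by
  classical
  set X := univ.filter fun χ : IrrCharacter K => ¬ W ≤ cker (χ : K → ℂ) with hX
  have hd : ∀ χ ∈ X, Nat.card H ∣ charDegree (χ : K → ℂ) := fun χ hχ =>
    card_dvd_deg h χ.2 (mem_filter.1 hχ).2
  have hle : ∀ χ ∈ X, Nat.card H ≤ charDegree (χ : K → ℂ) := fun χ hχ =>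
    Nat.le_of_dvd (deg_pos χ.2) (hd χ hχ)
  have hl : ∀ χ ∈ X, (χ : K → ℂ) 1 ≠ 1 := fun χ hχ e => by
    have := hle χ hχ
    rw [(deg_eq_one_iff (irr_isCharacter χ)).2 e] at this
    omega
  have h1 := (hK.sum_le X hl).trans (Nat.cast_le.2 hn)
  have h3 : ∑ χ ∈ X, charDegree (χ : K → ℂ) ^ 2 + W.index = W.index * Nat.card W := by
    have h4 := sum_norm_sq_filter_cker W 1
    have h5 : centralizer ({((1 : K) : K ⧸ W)} : Set (K ⧸ W)) = ⊤ :=
      eq_top_iff.2 fun x _ => mem_centralizer_singleton_iff.2 (by simp)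
    rw [h5, card_top, sum_congr rfl fun χ _ => by rw [norm_one_eq_deg (irr_isCharacter χ)]] at h4
    have h6 : ∑ χ ∈ univ.filter fun χ : IrrCharacter K => W ≤ cker (χ : K → ℂ),
        charDegree (χ : K → ℂ) ^ 2 = W.index := by exact_mod_cast h4
    rw [index_mul_card, ← sum_deg_sq, ← h6, add_comm, sum_filter_add_sum_filter_not]
  refine ⟨X.card, card_pos.2 (nonempty_of_ne_empty fun e => ?_), ?_, fun h4 => ?_⟩
  · rw [e, sum_empty, zero_add, eq_comm, Nat.mul_eq_left index_ne_zero_of_finite] at h3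
    exact hW (card_eq_one.1 h3)
  · have := card_nsmul_le_sum X ex ((Nat.card H : ℤ) - 2) fun χ hχ => by
      have := hle χ hχ
      rw [ex]; omega
    rw [nsmul_eq_mul] at this
    zify
    linarith
  · rw [← h3, sum_congr rfl (g := fun _ => Nat.card H ^ 2) fun χ hχ => ?_, sum_const, smul_eq_mul]
    have h5 := (single_le_sum (f := ex) (fun χ hχ => ex_nonneg (hl χ hχ)) hχ).trans h1
    obtain ⟨m, hm⟩ := hd χ hχ
    have h6 := deg_pos χ.2
    rw [ex] at h5
    have h7 : Nat.card H * m < Nat.card H * 2 := by omega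
    have h8 := lt_of_mul_lt_mul_left h7 (Nat.zero_le _)
    obtain rfl : m = 1 := by
      have : m ≠ 0 := by rintro rfl; omega
      omega
    rw [hm, mul_one]

end CfsgLib.Acd
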