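import Mathlib
import Cfsg.Agent.Lib.Acd.Char
import Cfsg.Agent.Lib.Char.Burnside
import Cfsg.Agent.Lib.Char.ClassCount
import Cfsg.Agent.Lib.MinC.Bad
import Cfsg.Agent.Lib.PSL2Rec.Basic
import Cfsg.Agent.Lib.Coprime.Abelian
import Cfsg.Agent.Lib.Tech.SylowIn
import Cfsg.Agent.Lib.Core.Frattini

/-! Groups all of whose proper subgroups have average character degree at most two. -/

set_option autoImplicit false
set_option linter.unusedSectionVars false

namespace CfsgLib.Acd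

open Subgroup Cfsg CfsgLib.Char CfsgLib.Tech
open scoped commutatorElement

universe u

/-- all proper subgroups have average degree at most two -/
def HP (G : Type*) [Group G] : Prop := ∀ H : Subgroup G, H ≠ ⊤ → AP H

variable {G : Type*} [Group G] [Finite G] {S : Type*} [Group S] [Finite S]

theorem commutator_eq_top (h : ∀ H : Subgroup G, H ≠ ⊤ → Group.IsSolvable H) (hn : ¬ Group.IsSolvable G) :
    _root_.commutator G = ⊤ := by
  by_contra e
  exact hn ((Group.isSolvable_iff_subgroup_quotient _).2 ⟨h _ e,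
    Group.isSolvable_of_comm fun a b : Abelianization G => mul_comm a b⟩)

theorem not_ap_min (h : IsMinimalSimple S) : ¬ AP S := fun hA => by
  classical
  obtain ⟨h1, h2, h3⟩ := h
  have := Fintype.ofFinite S
  have hn : ¬ Group.IsSolvable S := fun e => h2 ⟨⟨IsSimpleGroup.comm_iff_isSolvable.2 e⟩⟩
  have h4 := hA.card_le (n := 1) (by rw [commutator_eq_top h3 hn, index_top])
  have h5 : ∀ g : S, g ≠ 1 → 5 * Nat.card (centralizer ({g} : Set S)) ≤ Nat.card S := fun g hg => by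
    have h6 : centralizer ({g} : Set S) ≠ ⊤ := fun e => by
      have : center S = ⊤ := (IsSimpleGroup.eq_bot_or_eq_top_of_normal _ inferInstance).resolve_left fun e' =>
        hg (mem_bot.1 (e' ▸ mem_center_iff.2 fun x => mem_centralizer_singleton_iff.1 (e.ge (mem_top x))))
      exact h2 ⟨⟨fun a b => mem_center_iff.1 (this.ge (mem_top b)) a⟩⟩
    rw [← (centralizer ({g} : Set S)).index_mul_card]
    refine Nat.mul_le_mul_right _ (not_lt.1 fun h7 => hn (isSolvable_of_card_dvd_pow_mul_pow (a := 3) (b := 1)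
      Nat.prime_two Nat.prime_three ((PSL2Rec.simple_card_dvd_factorial h6).trans
        (Nat.factorial_dvd_factorial (n := 4) (by omega)))))
  have h6 := sum_card_centralizer (G := S)
  rw [← Finset.add_sum_erase _ _ (Finset.mem_univ 1)] at h6
  have h7 := Finset.sum_le_card_nsmul (Finset.univ.erase (1 : S))
    (fun g => 5 * Nat.card (centralizer ({g} : Set S))) _ fun g hg => h5 g (Finset.ne_of_mem_erase hg)
  rw [← Finset.mul_sum, Finset.card_erase_of_mem (Finset.mem_univ _), Finset.card_univ, smul_eq_mul,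
    ← Nat.card_eq_fintype_card] at h7
  have h8 := card_le_card_group (centralizer ({1} : Set S))
  have h0 : 0 < Nat.card S := Nat.card_pos
  have h9 : 5 * Nat.card (ConjClasses S) ≤ 5 + (Nat.card S - 1) :=
    Nat.le_of_mul_le_mul_right (by nlinarith) h0
  refine hn (isSolvable_of_card_primeFactors_le_two ?_)
  have : ∀ n ≤ 26, n.primeFactors.card ≤ 2 := by decide +kernel
  exact this _ (by omega)

theorem HP.of_surjective (h : HP G) (f : G →* S) (hf : Function.Surjective f) : HP S := fun H hH =>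
  (h (H.comap f) fun e => hH (by rw [← map_comap_eq_self_of_surjective hf H, e, map_top_of_surjective f hf])).of_surjective
    (f.subgroupComap H) (f.subgroupComap_surjective_of_surjective H hf)

theorem solvable_of_forall {G : Type u} [Group G] [Finite G] (h : ∀ H : Subgroup G, AP H) :
    Group.IsSolvable G := by
  by_contra hn
  obtain ⟨H, hH⟩ := MinC.induct (P := fun G _ => ∃ H : Subgroup G, ¬ AP H)
    (fun G _ _ h => ⟨⊤, fun e => not_ap_min h (e.of_equiv topEquiv)⟩)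
    (fun G _ _ K ⟨H, hH⟩ => ⟨H.map K.subtype, fun e => hH
      (e.of_equiv (H.equivMapOfInjective _ K.subtype_injective).symm)⟩)
    (fun G _ _ N _ _ _ _ ⟨H, hH⟩ => ⟨H.comap (QuotientGroup.mk' N), fun e => hH (e.of_surjective _
      ((QuotientGroup.mk' N).subgroupComap_surjective_of_surjective H (QuotientGroup.mk'_surjective N)))⟩) G hn
  exact hH (h H)

theorem HP.solvable (h : HP G) (H : Subgroup G) (hH : H ≠ ⊤) : Group.IsSolvable H :=
  solvable_of_forall fun K => (h (K.map H.subtype) fun e => hH (top_le_iff.1 (e ▸ map_subtype_le K))).of_equiv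
    (K.equivMapOfInjective _ H.subtype_injective).symm

theorem Fp.le_commutator {W : Subgroup G} [W.Normal] {x : G} (h : Fp W x) : W ≤ _root_.commutator G :=
  fun n hn => by
    obtain ⟨w, -, rfl⟩ := h.exists_eq (W.normalizer_eq_top ▸ mem_top _) hn
    exact commutator_mem_commutator (mem_top w) (mem_top x)

/-- Frobenius subgroups of a simple group -/
theorem HP.frob [IsSimpleGroup G] (h : HP G) {T H : Subgroup G} (hn : H ≤ normalizer (T : Set G))
    (hT : T ≠ ⊥) (hf : ∀ x ∈ H, x ≠ 1 → Fp T x) (h3 : 3 ≤ Nat.card H) :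
    ∃ c : ℕ, c * Nat.card H ≤ Nat.card H + 2 * c ∧ c * Nat.card H + 1 = Nat.card T := by
  have h1 : T ⊓ H = ⊥ := eq_bot_iff.2 fun x hx => mem_bot.2 (by_contra fun e => e (hf x hx.2 e x hx.1 rfl))
  have h2 : T ⊔ H ≤ normalizer (T : Set G) := sup_le le_normalizer hn
  have hK : T ⊔ H ≠ ⊤ := fun e => by
    have := (IsSimpleGroup.eq_bot_or_eq_top_of_normal T (normalizer_eq_top_iff.1 (top_le_iff.1 (e ▸ h2)))).resolve_left hT
    rw [this, top_inf_eq] at h1
    rw [h1, card_bot] at h3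
    omega
  have := (normal_subgroupOf_iff_le_normalizer (le_sup_left : T ≤ T ⊔ H)).2 h2
  have c1 := Core.card_subgroupOf_of_le (le_sup_left : T ≤ T ⊔ H)
  have c2 := Core.card_subgroupOf_of_le (le_sup_right : H ≤ T ⊔ H)
  have c3 := Coprime.card_sup_mul_card_inf hn
  have c4 := (T.subgroupOf (T ⊔ H)).index_mul_card
  rw [h1, card_bot, mul_one] at c3
  rw [c1, c3, mul_comm (Nat.card T)] at c4
  replace c4 := Nat.eq_of_mul_eq_mul_right Nat.card_pos c4
  have hf' : ∀ x ∈ H.subgroupOf (T ⊔ H), x ≠ 1 → Fp (T.subgroupOf (T ⊔ H)) x := fun x hx e w hw e' =>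
    Subtype.ext (hf x hx (fun e1 => e (Subtype.ext e1)) w hw (congrArg Subtype.val e'))
  obtain ⟨x, hx, x1⟩ := (H.subgroupOf (T ⊔ H)).bot_or_exists_ne_one.resolve_left fun e => by
    rw [← c2, e, card_bot] at h3; omega
  obtain ⟨c, -, e1, e2⟩ := (h _ hK).frob hf' (fun e => hT (card_eq_one.1 (by rw [← c1, e, card_bot])))
    (by omega) (c4 ▸ Nat.le_of_dvd (Nat.pos_of_ne_zero index_ne_zero_of_finite)
      (index_dvd_of_le (hf' x hx x1).le_commutator))
  rw [c1, c2, c4] at e2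
  refine ⟨c, c2 ▸ e1, Nat.eq_of_mul_eq_mul_left (by omega : 0 < Nat.card H) ?_⟩
  rw [← e2 (by omega)]; ring

theorem mem_zpowers_of_prime {a x : S} (hs : (orderOf a).Prime) (hx : x ∈ zpowers a) (h1 : x ≠ 1) :
    a ∈ zpowers x := by
  have := Fact.mk hs
  have := mem_zpowers_of_prime_card (p := orderOf a) (Nat.card_zpowers a) (g := ⟨x, hx⟩)
    (g' := ⟨a, mem_zpowers a⟩) fun e => h1 (congrArg Subtype.val e)
  obtain ⟨k, hk⟩ := this
  exact ⟨k, congrArg Subtype.val hk⟩

/-- a non-abelian subgroup of order `s m` -/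
def Frb (S : Type*) [Group S] (s m : ℕ) : Prop :=
  ∃ a b : S, orderOf a = s ∧ orderOf b = m ∧ b * a * b⁻¹ ∈ zpowers a ∧ b * a * b⁻¹ ≠ a

theorem Frb.of_injective {s m : ℕ} (h : Frb G s m) (f : G →* S) (hf : Function.Injective f) : Frb S s m := by
  obtain ⟨a, b, h1, h2, ⟨k, h3⟩, h4⟩ := h
  refine ⟨f a, f b, (orderOf_injective f hf a).trans h1, (orderOf_injective f hf b).trans h2, ⟨k, ?_⟩,
    fun e => h4 (hf (by simpa using e))⟩
  simpa using congrArg f h3

theorem zp_norm {a b : S} (h : b * a * b⁻¹ ∈ zpowers a) : zpowers b ≤ normalizer (zpowers a : Set S) :=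
  zpowers_le.2 (mem_normalizer_of_cj_le (by rw [cj_zpowers]; exact zpowers_le.2 h))

theorem HP.frb [IsSimpleGroup G] (h : HP G) {s m : ℕ} (hs : s.Prime) (hm : m.Prime) (h3 : 3 ≤ m)
    (hf : Frb G s m) : ∃ c : ℕ, c * m ≤ m + 2 * c ∧ c * m + 1 = s := by
  obtain ⟨a, b, rfl, rfl, h1, h2⟩ := hf
  have := h.frob (zp_norm h1) (fun e => hs.ne_one (orderOf_eq_one_iff.2 (zpowers_eq_bot.1 e)))
    (fun x hx x1 w hw e => by
      by_contra w1
      obtain ⟨i, hi⟩ := mem_zpowers_of_prime hs hw w1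
      obtain ⟨j, hj⟩ := mem_zpowers_of_prime hm hx x1
      exact h2 (mul_inv_eq_iff_eq_mul.2 (by
        rw [← hi, ← hj]; exact (Commute.zpow_zpow e j i).eq))) (by rwa [Nat.card_zpowers])
  simpa only [Nat.card_zpowers] using this

theorem AP.ext {K : Type*} [Group K] [Finite K] (h : AP K) (ψ : K →* S) (h1 : ψ.ker ≠ ⊥) {x y : K}
    (hs : (orderOf x).Prime) (hx : ψ x ≠ 1) (hf : Fp ψ.ker x) (h2 : ψ y * ψ x * (ψ y)⁻¹ ∈ zpowers (ψ x))
    (h3 : ψ y * ψ x * (ψ y)⁻¹ ≠ ψ x) {m : ℕ} (hm : Nat.card ψ.range = orderOf x * m) :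
    ∃ c : ℕ, 1 ≤ c ∧ c * orderOf x ≤ m + 2 * c ∧
      (m + 2 < 2 * orderOf x → c * orderOf x + m = m * Nat.card ψ.ker) := by
  have ho : orderOf (ψ x) = orderOf x :=
    ((Nat.dvd_prime hs).1 (orderOf_map_dvd ψ x)).resolve_left fun e => hx (orderOf_eq_one_iff.1 e)
  have h4 : (zpowers (ψ x)).comap ψ ≤ _root_.commutator K := fun g hg => by
    obtain ⟨i, hi⟩ := mem_zpowers_of_prime (ho ▸ hs) (mul_mem h2 (inv_mem (mem_zpowers _)))
      (mt mul_inv_eq_one.1 h3)
    obtain ⟨j, hj⟩ := hg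
    have e : g * (⁅y, x⁆ ^ (i * j))⁻¹ ∈ ψ.ker := by
      rw [MonoidHom.mem_ker, map_mul, map_inv, mul_inv_eq_one, ← hj, map_zpow, map_commutatorElement,
        zpow_mul, commutatorElement_def]
      exact congrArg (· ^ j) hi.symm
    exact (mul_mem_cancel_right (inv_mem (zpow_mem (commutator_mem_commutator (mem_top y) (mem_top x)) _))).1
      (hf.le_commutator e)
  have h5 : ((zpowers (ψ x)).comap ψ).index = m := by
    have := card_mul_relIndex' (zpowers_le.2 (show ψ x ∈ ψ.range from ⟨x, rfl⟩))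
    rw [Nat.card_zpowers, hm, ho] at this
    rw [index_comap, Nat.eq_of_mul_eq_mul_left hs.pos this]
  obtain ⟨c, e0, e1, e2⟩ := h.frob (W := ψ.ker) (H := zpowers x) (fun z hz z1 w hw e => hf w hw (by
      obtain ⟨i, hi⟩ := mem_zpowers_of_prime hs hz z1
      rw [← hi]; exact (Commute.zpow_left e i).eq)) h1 (by rw [Nat.card_zpowers]; exact hs.two_le)
    (h5 ▸ Nat.le_of_dvd (Nat.pos_of_ne_zero index_ne_zero_of_finite) (index_dvd_of_le h4))
  rw [Nat.card_zpowers] at e1 e2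
  refine ⟨c, e0, e1, fun e => Nat.eq_of_mul_eq_mul_left hs.pos ?_⟩
  have := e2 e
  rw [index_ker, hm] at this
  linarith

/-- a non-central chief factor -/
theorem HP.chief (h : HP G) (φ : G →* S) (hφ : Function.Surjective φ) (hS : ¬ Group.IsSolvable S)
    {V : Subgroup G} [V.Normal] [IsMulCommutative V] {r : ℕ} (hr : r.Prime) (hV : IsPGroup r V)
    (hC : centralizer (V : Set G) = φ.ker) {s m : ℕ} (hs : s.Prime) (hm : m.Prime) (h1 : s ≠ r) (h2 : s ≠ m)
    (hf : Frb S s m) : ∃ c k : ℕ, 1 ≤ c ∧ c * s ≤ m + 2 * c ∧ (m + 2 < 2 * s → c * s + m = m * r ^ k) := by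
  have := Fact.mk hs
  have := Fact.mk hr
  obtain ⟨a, b, ha, hb, h3, h4⟩ := hf
  have a1 : a ≠ 1 := fun e => hs.ne_one (by rw [← ha, e, orderOf_one])
  obtain ⟨x, rfl, j, hx⟩ := MinC.exists_lift_pow φ hφ hs (ha.trans (pow_one s).symm)
  obtain ⟨y₀, rfl⟩ := hφ b
  obtain ⟨Q, hQ, hxQ⟩ := exists_isSylowIn_ge (H := (zpowers (φ x)).comap φ)
    (isPGroup_zpowers_iff.2 ⟨j, hx⟩) (zpowers_le.2 (mem_zpowers _))
  replace hxQ : x ∈ Q := hxQ (mem_zpowers x)
  obtain ⟨n, hn, hy⟩ := hQ.frattini (g := y₀) (mem_normalizer_of_forall fun g hg => by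
    rw [mem_comap, map_mul, map_mul, map_inv]
    exact conj_mem_of_mem_normalizer (zp_norm h3 (mem_zpowers _)) hg)
  have e0 : φ (n * y₀) * φ x * (φ (n * y₀))⁻¹ = φ y₀ * φ x * (φ y₀)⁻¹ := by
    obtain ⟨i, hi⟩ := h3
    obtain ⟨k, hk⟩ := hn
    rw [map_mul, mul_inv_rev, mul_assoc (φ n), mul_assoc, ← mul_assoc (φ y₀ * φ x), ← hi, ← hk]
    change φ x ^ k * (φ x ^ i * (φ x ^ k)⁻¹) = φ x ^ i
    group
  have hD : (Q ⊔ zpowers (n * y₀)).map φ = zpowers (φ x) ⊔ zpowers (φ y₀) := by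
    rw [Subgroup.map_sup, MonoidHom.map_zpowers, map_mul,
      le_antisymm (map_le_iff_le_comap.2 hQ.le) (zpowers_le.2 (mem_map_of_mem φ hxQ))]
    exact le_antisymm (sup_le le_sup_left (zpowers_le.2 (mul_mem_sup hn (mem_zpowers _))))
      (sup_le le_sup_left (zpowers_le.2 ((mul_mem_cancel_left (mem_sup_left (show φ n ∈ zpowers (φ x) from hn))).1
        (mem_sup_right (mem_zpowers _)))))
  have cD := Coprime.card_sup_mul_card_inf (zp_norm h3)
  rw [inf_eq_bot_of_coprime (by rw [Nat.card_zpowers, Nat.card_zpowers, ha, hb]; exact (Nat.coprime_primes hs hm).2 h2),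
    card_bot, mul_one, Nat.card_zpowers, Nat.card_zpowers, ha, hb] at cD
  have hR : Q ⊔ zpowers (n * y₀) ≤ normalizer (Q : Set G) := sup_le le_normalizer (zpowers_le.2 hy)
  generalize n * y₀ = y at hy e0 hD hR
  have hyR : y ∈ Q ⊔ zpowers y := mem_sup_right (mem_zpowers y)
  have hQR : Q ≤ Q ⊔ zpowers y := le_sup_left
  generalize Q ⊔ zpowers y = R at hD hR hyR hQR
  have nV : ∀ X : Subgroup G, X ≤ normalizer (V : Set G) := fun X => V.normalizer_eq_top ▸ le_top
  have cop : (Nat.card Q).Coprime (Nat.card V) := IsPGroup.coprime_card_of_ne s r h1 Q V hQ.pgroup hV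
  have c1 := Coprime.centralizer_inf_commutator_eq_bot (nV Q) cop
  have hW : ⁅V, Q⁆ ≤ V := commutator_le_left V Q
  have hWk : ⁅V, Q⁆ ≤ φ.ker := hC ▸ hW.trans (le_centralizer V)
  have nW : R ≤ normalizer ((⁅V, Q⁆ : Subgroup G) : Set G) := fun g hg => mem_normalizer_iff_cj.2 (by
    rw [cj_commutator, cj_eq_of_normal, mem_normalizer_iff_cj.1 (hR hg)])
  have W1 : ⁅V, Q⁆ ≠ ⊥ := fun e => a1 (MonoidHom.mem_ker.1 (hC ▸
    le_centralizer_iff.1 (commutator_eq_bot_iff_le_centralizer.1 e) hxQ))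
  have fx : Fp ⁅V, Q⁆ x := fun w hw e => mem_bot.1 (c1 ▸ mem_inf.2 ⟨mem_centralizer_iff.2 fun q hq => by
    obtain ⟨k, hk⟩ := hQ.le hq
    have h5 : q * (x ^ k)⁻¹ ∈ centralizer (V : Set G) := by
      rw [hC, MonoidHom.mem_ker, map_mul, map_inv, map_zpow, mul_inv_eq_one]; exact hk.symm
    have := (show Commute (q * (x ^ k)⁻¹) w from (mem_centralizer_iff.1 h5 w (hW hw)).symm).mul_left
      (Commute.zpow_left e k)
    rwa [inv_mul_cancel_right] at this, hw⟩)
  have c2 : ⁅V, Q⁆ ⊓ R = ⊥ := eq_bot_iff.2 fun w hw => mem_bot.2 (fx w hw.1 (by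
    have h5 : ⁅w, x⁆ ∈ Q ⊓ V := mem_inf.2 ⟨mul_mem (conj_mem_of_mem_normalizer (hR hw.2) hxQ) (inv_mem hxQ),
      hW (commutator_mem_commutator (hW hw.1) hxQ)⟩
    rw [inf_eq_bot_of_coprime cop] at h5
    exact (commutatorElement_eq_one_iff_mul_comm.1 h5).symm))
  generalize ⁅V, Q⁆ = W at hW hWk nW W1 fx c2
  have hK : W ⊔ R ≠ ⊤ := fun e => by
    have := congrArg (Subgroup.map φ) e
    rw [Subgroup.map_sup, (map_eq_bot_iff W).2 hWk, bot_sup_eq, hD, map_top_of_surjective φ hφ] at this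
    have h5 := MinC.solvable_of_norm (x := φ x) (Group.isSolvable_of_comm mul_comm') (mem_zpowers _)
      (zp_norm h3 (mem_zpowers _))
    rw [← Set.singleton_union, Subgroup.closure_union, ← zpowers_eq_closure, ← zpowers_eq_closure, this] at h5
    exact hS (Group.isSolvable_of_surjective (f := (⊤ : Subgroup S).subtype) fun y => ⟨⟨y, mem_top y⟩, rfl⟩)
  have : ((R ⊓ φ.ker).subgroupOf (W ⊔ R)).Normal :=
    (normal_subgroupOf_iff_le_normalizer (inf_le_left.trans le_sup_right)).2 (sup_le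
      ((hW.trans (le_centralizer_iff.1 (inf_le_right.trans hC.ge))).trans (centralizer_le_normalizer _))
      ((le_inf le_normalizer (φ.ker.normalizer_eq_top ▸ le_top)).trans inf_normalizer_le_normalizer_inf))
  let π := QuotientGroup.mk' ((R ⊓ φ.ker).subgroupOf (W ⊔ R))
  have hπ : ∀ g, π g = 1 ↔ g.1 ∈ R ⊓ φ.ker := fun g => QuotientGroup.eq_one_iff g
  let ψ := QuotientGroup.lift ((R ⊓ φ.ker).subgroupOf (W ⊔ R)) (φ.comp (W ⊔ R).subtype) fun g hg => hg.2
  have hψ : ∀ g, ψ (π g) = φ g := fun _ => rfl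
  let ι : W →* _ := π.comp (inclusion (le_sup_left : W ≤ W ⊔ R))
  have ιi : Function.Injective ι := (injective_iff_map_eq_one ι).2 fun w hw =>
    Subtype.ext (mem_bot.1 (c2 ▸ mem_inf.2 ⟨w.2, ((hπ _).1 hw).1⟩))
  have hk : ψ.ker = ι.range := by
    refine le_antisymm (fun g hg => ?_) (by rintro _ ⟨w, rfl⟩; exact hWk w.2)
    obtain ⟨⟨g, hg'⟩, rfl⟩ := QuotientGroup.mk'_surjective _ g
    obtain ⟨w, hw, z, hz, rfl⟩ := (Coprime.mem_sup_iff_of_le_normalizer nW).1 hg'
    refine ⟨⟨w, hw⟩, ?_⟩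
    have h5 : π ⟨z, mem_sup_right hz⟩ = 1 := (hπ _).2 ⟨hz, (mul_mem_cancel_left (hWk hw)).1 hg⟩
    rw [← mul_one (ι _), ← h5]
    exact (map_mul π _ _).symm
  have ck : Nat.card ψ.ker = Nat.card W := hk ▸ (Nat.card_congr (MonoidHom.ofInjective ιi).toEquiv).symm
  have hxK : x ∈ W ⊔ R := mem_sup_right (hQR hxQ)
  have ox : orderOf (π ⟨x, hxK⟩) = s := orderOf_eq_prime
    (by rw [← map_pow, hπ]
        exact ⟨pow_mem (hQR hxQ) s, by
          change φ (x ^ s) = 1
          rw [map_pow, ← ha, pow_orderOf_eq_one]⟩) fun e => a1 ((hπ _).1 e).2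
  obtain ⟨k, hk'⟩ := (hV.to_le hW).exists_card_eq
  obtain ⟨c, e1, e2, e3⟩ := ((h _ hK).of_surjective π (QuotientGroup.mk'_surjective _)).ext ψ
    (fun e => W1 (card_eq_one.1 (by rw [← ck, e, card_bot]))) (x := π ⟨x, hxK⟩) (y := π ⟨y, mem_sup_right hyR⟩)
    (ox ▸ hs) a1 (by
      rw [hk]
      rintro _ ⟨w, rfl⟩ e
      have h5 : ⁅x, (w : G)⁆ ∈ W := mul_mem (conj_mem_of_mem_normalizer (nW (hQR hxQ)) w.2) (inv_mem w.2)
      have h6 : π ⁅(⟨x, hxK⟩ : ↥(W ⊔ R)), inclusion le_sup_left w⁆ = 1 := by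
        rw [map_commutatorElement]; exact commutatorElement_eq_one_iff_mul_comm.2 e
      have h7 : ⁅x, (w : G)⁆ = 1 := mem_bot.1 (c2 ▸ mem_inf.2 ⟨h5, ((hπ _).1 h6).1⟩)
      rw [show w = 1 from Subtype.ext (fx w w.2 (commutatorElement_eq_one_iff_mul_comm.1 h7)), map_one])
    (by rw [hψ, hψ, e0]; exact h3) (by rw [hψ, hψ, e0]; exact h4) (m := m) (by
      rw [ox, ← cD, ← hD]
      congr 2
      refine le_antisymm ?_ (by rintro _ ⟨g, hg, rfl⟩; exact ⟨π ⟨g, mem_sup_right hg⟩, rfl⟩)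
      rintro _ ⟨g, rfl⟩
      obtain ⟨⟨g, hg'⟩, rfl⟩ := QuotientGroup.mk'_surjective _ g
      obtain ⟨w, hw, z, hz, rfl⟩ := (Coprime.mem_sup_iff_of_le_normalizer nW).1 hg'
      exact ⟨z, hz, by change _ = φ (w * z); rw [map_mul, MonoidHom.mem_ker.1 (hWk hw), one_mul]⟩)
  rw [ox] at e2 e3
  exact ⟨c, k, e1, e2, fun e => by rw [e3 e, ck, hk']⟩

/-- the subgroups that exclude non-central chief factors -/
def Good (S : Type*) [Group S] : Prop :=
  Frb S 3 2 ∧ ∃ s m : ℕ, s.Prime ∧ m.Prime ∧ 5 ≤ s ∧ m + 2 < s ∧ Frb S s m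

theorem HP.ker_le_center [IsSimpleGroup S] (hS : ¬ Group.IsSolvable S) (hg : Good S) {G : Type u} [Group G]
    [Finite G] (h : HP G) (φ : G →* S) (hφ : Function.Surjective φ) : φ.ker ≤ center G := by
  induction hn : Nat.card G using Nat.strong_induction_on generalizing G with
  | _ n ih =>
  by_cases h0 : φ.ker = ⊥
  · exact h0 ▸ bot_le
  have key : ∀ M : Subgroup G, M.map φ = ⊤ → M = ⊤ := fun M e => by
    by_contra hM
    have := h.solvable M hM
    exact hS (Group.isSolvable_of_surjective (f := φ.comp M.subtype) fun y => by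
      obtain ⟨x, hx, rfl⟩ := e.ge (mem_top y)
      exact ⟨⟨x, hx⟩, rfl⟩)
  have h1 : φ.ker ≤ frattini G := Core.le_frattini_iff.2 fun M hM => by
    by_contra e
    refine hM.1 (key M ?_)
    have := congrArg (Subgroup.map φ) (hM.2 (M ⊔ φ.ker) (left_lt_sup.2 e))
    rwa [Subgroup.map_sup, (map_eq_bot_iff φ.ker).2 le_rfl, sup_bot_eq, map_top_of_surjective φ hφ] at this
  have hN : Group.IsNilpotent φ.ker :=
    have := frattini_nilpotent (G := G)
    nilpotent_of_mulEquiv (subgroupOfEquivOfLe h1)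
  obtain ⟨V, hV, V1, hVk, hm⟩ := Core.exists_minimal_normal_le h0
  have : Group.IsSolvable V := Group.isSolvable_of_isSolvable_injective (inclusion_injective hVk)
  obtain ⟨r, hr, h2, h3, -⟩ := SolvStruct.minimal_normal_exists_pgroup_of_solvable V1 hm
  have h4 := SolvStruct.minimal_normal_le_centralizer_of_nilpotent hm hN
  have h5 : V ≤ center G := by
    rcases IsSimpleGroup.eq_bot_or_eq_top_of_normal _ (Normal.map (H := centralizer (V : Set G)) inferInstance φ hφ) with e | e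
    · have hC := le_antisymm ((Subgroup.map_eq_bot_iff _).1 e) h4
      obtain ⟨h6, s, m, hs, hm, h7, h8, h9⟩ := hg
      obtain rfl : s = r := by
        by_contra e1
        obtain ⟨c, -, e2, e3, -⟩ := h.chief φ hφ hS hr h2 hC hs hm e1 (by omega) h9
        nlinarith
      obtain ⟨c, k, e2, e3, e4⟩ := h.chief φ hφ hS hr h2 hC Nat.prime_three Nat.prime_two (by omega)
        (by omega) h6
      have e5 := e4 (by omega)
      have e6 : s ∣ 2 ^ 2 := (show s ^ k = 2 ^ 2 by omega) ▸ dvd_pow_self s (by rintro rfl; rw [pow_zero] at e5; omega)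
      have := Nat.le_of_dvd (by norm_num) e6
      omega
    · exact fun v hv => mem_center_iff.2 fun g =>
        (mem_centralizer_iff.1 ((key _ e).ge (mem_top g)) v hv).symm
  have h6 := ih _ (by
      rw [← hn, card_eq_card_quotient_mul_card_subgroup V]
      exact lt_mul_of_one_lt_right Nat.card_pos ((one_lt_card_iff_ne_bot V).2 V1))
    (h.of_surjective _ (QuotientGroup.mk'_surjective V)) (QuotientGroup.lift V φ hVk)
    (QuotientGroup.lift_surjective_of_surjective V φ hφ hVk) rfl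
  have h7' : ⁅φ.ker, (⊤ : Subgroup G)⁆ ≤ V := commutator_le.2 fun a ha b _ =>
    (QuotientGroup.eq_one_iff _).1 (show ⁅(a : G ⧸ V), (b : G ⧸ V)⁆ = 1 from
      commutatorElement_eq_one_iff_mul_comm.2
        (mem_center_iff.1 (h6 (show (a : G ⧸ V) ∈ _ from ha)) b).symm)
  have h7 : ⁅⁅φ.ker, (⊤ : Subgroup G)⁆, (⊤ : Subgroup G)⁆ = ⊥ :=
    commutator_eq_bot_iff_le_centralizer.2 ((h7'.trans h5).trans (center_le_centralizer _))
  have h8 := commutator_commutator_eq_bot_of_rotate (H₁ := ⊤) (H₂ := ⊤) (H₃ := φ.ker)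
    (by rwa [commutator_comm ⊤ φ.ker]) h7
  rw [← commutator_def, commutator_eq_top h.solvable fun _ => hS (Group.isSolvable_of_surjective hφ),
    commutator_comm, commutator_eq_bot_iff_le_centralizer] at h8
  exact fun a ha => mem_center_iff.2 fun g => mem_centralizer_iff.1 (h8 ha) g (mem_top g)

theorem HP.exists_min (h : HP G) (hn : ¬ Group.IsSolvable G) :
    ∃ (N : Subgroup G) (_ : N.Normal), IsMinimalSimple (G ⧸ N) := by
  have : Nontrivial G := not_subsingleton_iff_nontrivial.1 fun _ => hn inferInstance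
  obtain ⟨N, ⟨h1, h2⟩, hm⟩ := WellFoundedGT.exists_maximal (α := Subgroup G) inferInstance
    {N | N.Normal ∧ N ≠ ⊤} ⟨⊥, inferInstance, bot_ne_top⟩
  exact ⟨N, h1, Core.isSimpleGroup_quotient_of_maximal_normal h2 fun M hM hle =>
      or_iff_not_imp_right.2 fun e => le_antisymm (hm ⟨hM, e⟩ hle) hle,
    fun e => hn ((Group.isSolvable_iff_subgroup_quotient N).2
      ⟨h.solvable N h2, Group.isSolvable_of_comm e.is_comm.comm⟩),
    (h.of_surjective _ (QuotientGroup.mk'_surjective N)).solvable⟩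

end CfsgLib.Acd
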