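import Mathlib
import Cfsg.Agent.Lib.Acd.Grp
import Cfsg.Agent.Lib.MinC.Main
import Cfsg.Agent.S0252
import Cfsg.Agent.S0253

/-! The minimal simple groups whose proper subgroups have average degree at most two. -/

set_option autoImplicit false

namespace CfsgLib.Acd

open Subgroup Cfsg CfsgLib.SL2 CfsgLib.Dickson CfsgLib.MinC CfsgLib.MinS CfsgLib.Sz CfsgLib.Sz.Tits
open scoped MatrixGroups

theorem Good.of_equiv {G S : Type*} [Group G] [Finite G] [Group S] [Finite S] (h : Good G) (e : G ≃* S) :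
    Good S :=
  ⟨h.1.of_injective e.toMonoidHom e.injective, by
    obtain ⟨s, m, h1, h2, h3, h4, h5⟩ := h.2
    exact ⟨s, m, h1, h2, h3, h4, h5.of_injective e.toMonoidHom e.injective⟩⟩

variable {F : Type*} [Field F]

theorem not_hp_psl [Fintype F] (h2 : (2 : F) ≠ 0) (h : 11 ≤ Fintype.card F) [IsSimpleGroup PSL(2, F)] :
    ¬ HP PSL(2, F) := fun hP => by
  classical
  let φ : Multiplicative F →* PSL(2, F) := MonoidHom.mk' (fun c => (uu c.toAdd : PSL(2, F)))
    fun c d => by rw [toAdd_mul, uu_add, QuotientGroup.mk_mul]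
  have hφ : Function.Injective φ := (injective_iff_map_eq_one φ).2 fun c e => (mk_eq_one_iff.1 e).1
  have cj : ∀ (a : Fˣ) (b : F), (dg a : PSL(2, F)) * (uu b : SL(2, F)) * (dg a : PSL(2, F))⁻¹ =
      (uu (a * a * b) : SL(2, F)) := fun a b => by
    change ((dg a * uu _ * (dg a)⁻¹ : SL(2, F)) : PSL(2, F)) = _
    rw [← dg_inv]
    congr 1
    apply ext2 <;> simp [mul_ap]
    ring
  obtain ⟨a, ha⟩ := exists_pow_ne (F := F) (n := 4) (by norm_num) (by omega)
  have hd : ∀ k : ℤ, (dg a : PSL(2, F)) ^ k = dg (a ^ k) := fun k =>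
    (map_zpow ((QuotientGroup.mk' (center SL(2, F))).comp dgHom) a k).symm
  have h1 : ∀ k : ℕ, (dg a : PSL(2, F)) ^ k = 1 ↔ a ^ (k * 2) = 1 := fun k => by
    rw [← zpow_natCast, hd, mk_eq_one_iff, isScal_dg_iff, zpow_natCast, pow_mul, Units.ext_iff]
    simp
  have ho : Fintype.card F % 2 = 1 := FiniteField.odd_card_of_char_ne_two fun e => h2 (by
    exact_mod_cast e ▸ ringChar.Nat.cast_ringChar (R := F))
  have h3 : orderOf (dg a : PSL(2, F)) ≤ Fintype.card F / 2 := orderOf_le_of_pow_eq_one (by omega) (by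
    rw [h1, show Fintype.card F / 2 * 2 = Fintype.card Fˣ by rw [Fintype.card_units]; omega, pow_card_eq_one])
  have h4 : 3 ≤ orderOf (dg a : PSL(2, F)) := not_lt.1 fun e => ha ((h1 2).1 (orderOf_dvd_iff_pow_eq_one.1 (by
    have := orderOf_pos (dg a : PSL(2, F))
    interval_cases orderOf (dg a : PSL(2, F)) <;> norm_num)))
  obtain ⟨c, e1, e2⟩ := hP.frob (T := φ.range) (H := zpowers (dg a : PSL(2, F)))
    (zpowers_le.2 (mem_normalizer_fintype (by
      rintro _ ⟨b, rfl⟩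
      exact ⟨Multiplicative.ofAdd (a * a * b.toAdd), (cj a _).symm⟩)))
    (fun e => one_ne_zero (α := F) (hφ ((mem_bot.1 (e ▸ ⟨Multiplicative.ofAdd 1, rfl⟩)).trans (map_one φ).symm)))
    (by
      rintro _ ⟨k, rfl⟩ e _ ⟨b, rfl⟩ e'
      have h5 := cj (a ^ k) b.toAdd
      simp only [hd] at e e'
      have h6 : ((a ^ k : Fˣ) : F) * (a ^ k : Fˣ) * b.toAdd = b.toAdd :=
        hφ (a₁ := Multiplicative.ofAdd _) (a₂ := b) (h5.symm.trans (mul_inv_eq_iff_eq_mul.2 e'))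
      have h7 : (((a ^ k : Fˣ) : F) ^ 2 - 1) * b.toAdd = 0 := by
        linear_combination h6
      rw [show b = 1 from (mul_eq_zero.1 h7).resolve_left fun h8 =>
        e (mk_eq_one_iff.2 ((isScal_dg_iff _).2 (sub_eq_zero.1 h8))), map_one])
    (by rwa [Nat.card_zpowers])
  rw [Nat.card_zpowers] at e1 e2
  rw [← Nat.card_congr (MonoidHom.ofInjective hφ).toEquiv, Nat.card_eq_fintype_card,
    Fintype.card_multiplicative] at e2
  generalize orderOf (dg a : PSL(2, F)) = m at *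
  have h5 : 2 ≤ c := by
    by_contra! h5
    interval_cases c <;> omega
  obtain ⟨m, rfl⟩ := Nat.exists_eq_add_of_le h4
  obtain ⟨c, rfl⟩ := Nat.exists_eq_add_of_le h5
  nlinarith

theorem not_hp_sz [Finite F] {τ : Tits F} {m : ℕ} (hm : 1 ≤ m) (hF : Nat.card F = 2 ^ (2 * m + 1)) :
    ¬ HP τ.grp := fun hP => by
  have := isSimpleGroup_grp (τ := τ) (exists_ne_zero_one' hm hF)
  have hq : 8 ≤ Nat.card F := by
    rw [hF]
    exact le_trans (by norm_num) (Nat.pow_le_pow_right two_pos (show 3 ≤ 2 * m + 1 by omega))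
  obtain ⟨c, e1, e2⟩ := hP.frob (T := τ.U) (H := τ.H) (by rw [normalizer_U]; exact H_le_B _)
    (fun e => τ.S_zero_one_ne_one (mem_bot.1 (e ▸ τ.S_mem_U 0 1)))
    (fun x hx e w hw e' => by
      obtain ⟨k, rfl⟩ := mem_H.1 hx
      have h1 : w ∈ τ.H := centralizer_M (τ := τ) (mt τ.M_eq_one.2 e) ▸
        mem_centralizer_singleton_iff.2 e'.symm
      exact mem_bot.1 (inf_eq_bot_of_coprime (coprime_card_U_H (τ := τ)) ▸ mem_inf.2 ⟨hw, h1⟩))
    (by rw [card_H]; omega)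
  rw [card_H] at e1 e2
  rw [card_U] at e2
  obtain ⟨q, hq⟩ := Nat.exists_eq_add_of_le' hq
  rw [hq] at e1 e2
  change c * (q + 7) ≤ q + 7 + 2 * c at e1
  change c * (q + 7) + 1 = _ at e2
  have h5 : c = q + 9 := Nat.eq_of_mul_eq_mul_right (m := q + 7) (by omega) (by nlinarith)
  subst h5
  nlinarith

theorem fact13 : Fact (Nat.Prime 13) := ⟨by norm_num⟩

theorem fact7 : Fact (Nat.Prime 7) := ⟨by norm_num⟩

attribute [local instance] fact13 fact7

theorem frb_sl33 : Frb SL(3, ZMod 3) 13 3 := by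
  have e : m3 !![0, 0, 1; 0, 1, 0; 2, 2, 2] * m3 !![0, 0, 1; 0, 1, 1; 2, 1, 1] *
      (m3 !![0, 0, 1; 0, 1, 0; 2, 2, 2])⁻¹ = m3 !![0, 0, 1; 0, 1, 1; 2, 1, 1] ^ 3 :=
    mul_inv_eq_iff_eq_mul.2 (by decide +kernel)
  exact ⟨m3 !![0, 0, 1; 0, 1, 1; 2, 1, 1], m3 !![0, 0, 1; 0, 1, 0; 2, 2, 2],
    orderOf_eq_prime (by decide +kernel) (by decide +kernel),
    orderOf_eq_prime (by decide +kernel) (by decide +kernel), e ▸ pow_mem (mem_zpowers _) 3,
    by rw [e]; decide +kernel⟩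

theorem frb_l33 [Fintype F] (h : Fintype.card F = 3) : Frb PSL(3, F) 13 3 := by
  have e := Classical.pslMapEquiv (ι := Fin 3) (ZMod.ringEquivOfPrime F (by norm_num) h)
  refine (frb_sl33.of_injective (QuotientGroup.mk' _) ?_).of_injective e.toMonoidHom e.injective
  rw [← MonoidHom.ker_eq_bot_iff, QuotientGroup.ker_mk', eq_bot_iff]
  intro A hA
  obtain ⟨r, hr, e⟩ := Matrix.SpecialLinearGroup.mem_center_iff.1 hA
  have h3 : ∀ r : ZMod 3, r ^ 3 = 1 → r = 1 := by decide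
  obtain rfl := h3 r (by simpa using hr)
  exact Subtype.ext (by simpa using e.symm)

theorem frb_of_inv {S : Type*} [Group S] {a b : S} (hp : (orderOf a).Prime) (h2 : orderOf a ≠ 2)
    (hb : b ^ 2 = 1) (e : b * a * b⁻¹ = a⁻¹) : Frb S (orderOf a) 2 := by
  have h : b * a * b⁻¹ ≠ a := fun e' => h2 ((Nat.prime_dvd_prime_iff_eq hp Nat.prime_two).1
    (orderOf_dvd_of_pow_eq_one (by rw [pow_two, ← eq_inv_iff_mul_eq_one, ← e, e'])))
  exact ⟨a, b, rfl, orderOf_eq_prime hb fun e' => h (by simp [e']), e ▸ inv_mem (mem_zpowers a), h⟩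

theorem ord_comp_one : orderOf (comp (1 : F) : PSL(2, F)) = 3 :=
  orderOf_eq_prime (by rw [psl_mk_pow_eq_one_iff, cheb_three, tr_comp]; exact Or.inl (by ring))
    fun e => comp_not _ (mk_eq_one_iff.1 e)

theorem good_even [Fintype F] (h2 : (2 : F) = 0) (h4 : 4 ≤ Fintype.card F) : Good PSL(2, F) := by
  have key : ∀ g : SL(2, F), (orderOf (g : PSL(2, F))).Prime → orderOf (g : PSL(2, F)) ≠ 2 →
      Frb PSL(2, F) (orderOf (g : PSL(2, F))) 2 := fun g hp h => by
    have e := ord_eq_of_tr (comp_not _) (fun e => hp.ne_one (orderOf_eq_one_iff.2 (mk_eq_one_iff.2 e)))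
      (tr_comp _)
    rw [← e] at hp h ⊢
    refine frb_of_inv (b := ((ww : SL(2, F)) : PSL(2, F))) hp h (by
      rw [psl_mk_pow_eq_one_iff, cheb_two]; exact Or.inl (by simp [tr_def])) ?_
    rw [← QuotientGroup.mk_inv, ← QuotientGroup.mk_inv, ← QuotientGroup.mk_mul, ← QuotientGroup.mk_mul]
    congr 1
    apply ext2 <;> simp [mul_ap, comp, inv_00, inv_01, inv_10, inv_11]
    · linear_combination -h2
    · linear_combination h2
  refine ⟨ord_comp_one (F := F) ▸ key (comp 1) (by rw [ord_comp_one]; norm_num)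
    (by rw [ord_comp_one]; norm_num), ?_⟩
  obtain ⟨a, z, m, n, ha, hz, hm, hn, ⟨-, h5, rfl⟩ | ⟨h, -⟩⟩ := exists_primes h4
  swap
  · exact absurd h2 h
  have ho : Fintype.card F % 2 = 0 := FiniteField.even_card_of_char_two
    (CharP.ringChar_of_prime_eq_zero Nat.prime_two (by exact_mod_cast h2))
  have h6 : ∀ r : ℕ, r.Prime → r ≠ 2 → r ≠ 3 → 5 ≤ r := fun r hr a b => by
    by_contra! c
    interval_cases r <;> simp_all (config := {decide := true})
  have a2 : orderOf (dg a : PSL(2, F)) ≠ 2 := fun e => by rw [e] at hm; omega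
  have z2 : orderOf (z : PSL(2, F)) ≠ 2 := fun e => by rw [e] at hn; omega
  by_cases a3 : orderOf (dg a : PSL(2, F)) = 3
  · have := h6 _ hz z2 fun e => by rw [e] at hn; rw [a3] at hm; omega
    exact ⟨_, 2, hz, Nat.prime_two, this, by omega, key z hz z2⟩
  · have := h6 _ ha a2 a3
    exact ⟨_, 2, ha, Nat.prime_two, this, by omega, key _ ha a2⟩

theorem good_seven : Good PSL(2, ZMod 7) := by
  have h1 := ord_comp_one (F := ZMod 7)
  refine ⟨h1 ▸ frb_of_inv (b := ((mk2 1 4 3 6 (by decide) : SL(2, ZMod 7)) : PSL(2, ZMod 7)))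
    (by rw [h1]; norm_num) (by rw [h1]; norm_num) (by
      rw [psl_mk_pow_eq_one_iff, cheb_two]; exact Or.inl (by decide)) ?_, 7, 3, by norm_num, by norm_num,
    by norm_num, by norm_num, (uu 1 : SL(2, ZMod 7)), (mk2 2 0 0 4 (by decide) : SL(2, ZMod 7)),
    ord_uu one_ne_zero, orderOf_eq_prime (by
      rw [psl_mk_pow_eq_one_iff, cheb_three]; exact Or.inl (by decide))
      fun e => absurd (mk_eq_one_iff.1 e).2.2 (by decide), ⟨(4 : ℕ), ?_⟩, ?_⟩
  · rw [← QuotientGroup.mk_inv, ← QuotientGroup.mk_inv, ← QuotientGroup.mk_mul, ← QuotientGroup.mk_mul]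
    exact congrArg _ (ext2_iff.2 (by decide))
  · simp only [zpow_natCast]
    rw [← QuotientGroup.mk_inv, ← QuotientGroup.mk_mul, ← QuotientGroup.mk_mul, ← QuotientGroup.mk_pow]
    exact congrArg _ (ext2_iff.2 (by decide))
  · rw [← QuotientGroup.mk_inv, ← QuotientGroup.mk_mul, ← QuotientGroup.mk_mul, Ne, psl_mk_eq_iff,
      ext2_iff, ext2_iff]
    decide

/-- the surviving simple groups -/
theorem HP.list {S : Type*} [Group S] [Finite S] [IsSimpleGroup S] (h : HP S) (hM : MinList S) :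
    (∃ p : ℕ, p.Prime ∧ p ≠ 2 ∧ IsoL2 S (2 ^ p)) ∨ (IsoL2 S 4 ∧ Nonempty (S ≃* PSL(2, ZMod 5))) ∨
      Nonempty (S ≃* PSL(2, ZMod 7)) := by
  have : Fact (Nat.Prime 5) := ⟨by norm_num⟩
  have key : ∀ n, IsoL2 S n → Odd n → n < 11 := by
    rintro _ ⟨F, _, _, rfl, ⟨e⟩⟩ ho
    have := e.isSimpleGroup_congr.1 inferInstance
    exact not_le.1 fun hn => not_hp_psl (two_ne_zero_of_odd ho) hn (h.of_surjective e.toMonoidHom e.surjective)
  obtain ⟨e5⟩ := Agent.S0253.result (ZMod.card 5)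
  rcases hM with ⟨p, hp, h1⟩ | ⟨p, hp, h2, h1⟩ | ⟨p, hp, h2, h1⟩ | ⟨F, _, _, h1, ⟨e⟩⟩ |
    ⟨p, -, F, _, _, m, hm, -, h1, ⟨e⟩⟩
  · by_cases h2 : p = 2
    · subst h2
      refine Or.inr (Or.inl ⟨h1, ?_⟩)
      obtain ⟨F, _, _, h1, ⟨e⟩⟩ := h1
      obtain ⟨e4⟩ := Agent.S0252.result h1
      exact ⟨e.trans (e4.trans e5.symm)⟩
    · exact Or.inl ⟨p, hp, h2, h1⟩
  · have := key _ h1 (Odd.pow (by decide))
    have := Nat.pow_le_pow_right (n := 3) (by norm_num) (show 3 ≤ p by have := hp.two_le; omega)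
    omega
  · have h3 := key _ h1 (hp.odd_of_ne_two (by omega))
    obtain ⟨F, _, _, h1, ⟨e⟩⟩ := h1
    rcases h2 with rfl | h2
    · obtain ⟨e4⟩ := Agent.S0252.result Classical.card_GF4
      obtain ⟨e6⟩ := Agent.S0253.result h1
      exact Or.inr (Or.inl ⟨⟨_, _, _, Classical.card_GF4, ⟨e.trans (e6.trans e4.symm)⟩⟩,
        ⟨e.trans (e6.trans e5.symm)⟩⟩)
    · obtain rfl : p = 7 := by
        have : p ≠ 8 := by rintro rfl; norm_num at hp
        omega
      exact Or.inr (Or.inr ⟨e.trans (Classical.pslMapEquiv (ZMod.ringEquivOfPrime F hp h1)).symm⟩)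
  · obtain ⟨c, e1, e2⟩ := h.frb (by norm_num) Nat.prime_three le_rfl
      ((frb_l33 h1).of_injective e.symm.toMonoidHom e.symm.injective)
    omega
  · exact absurd (h.of_surjective (e.trans (lieSzEquiv h1).symm).toMonoidHom (MulEquiv.surjective _))
      (not_hp_sz hm (Nat.card_eq_fintype_card.trans h1))

end CfsgLib.Acd
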