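import Mathlib
import Cfsg.Agent.Lib.Acd.Grp
import Cfsg.Agent.Lib.SL2.Basic

/-! The binary octahedral subgroup of `SL₂(7)` has average character degree above two. -/

set_option autoImplicit false

namespace CfsgLib.Acd

open Subgroup CfsgLib.SL2
open scoped MatrixGroups

/-- entries of a matrix -/
abbrev T7 : Type := ZMod 7 × ZMod 7 × ZMod 7 × ZMod 7

/-- matrix product -/
def m4 (x y : T7) : T7 := (x.1 * y.1 + x.2.1 * y.2.2.1, x.1 * y.2.1 + x.2.1 * y.2.2.2,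
  x.2.2.1 * y.1 + x.2.2.2 * y.2.2.1, x.2.2.1 * y.2.1 + x.2.2.2 * y.2.2.2)

/-- the elements -/
def octL : List T7 := [(0, 1, 6, 3), (0, 2, 3, 4), (0, 3, 2, 0), (0, 4, 5, 0), (0, 5, 4, 3), (0, 6, 1, 4),
  (1, 0, 0, 1), (1, 1, 4, 5), (1, 2, 6, 6), (1, 3, 5, 2), (1, 4, 3, 6), (1, 5, 1, 6), (1, 6, 2, 6),
  (2, 0, 6, 4), (2, 1, 4, 6), (2, 2, 1, 5), (2, 3, 3, 5), (2, 4, 2, 1), (2, 5, 0, 4), (2, 6, 5, 5),
  (3, 0, 6, 5), (3, 1, 4, 4), (3, 2, 3, 0), (3, 3, 5, 3), (3, 4, 2, 3), (3, 5, 0, 5), (3, 6, 1, 0),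
  (4, 0, 1, 2), (4, 1, 6, 0), (4, 2, 0, 2), (4, 3, 5, 4), (4, 4, 2, 4), (4, 5, 4, 0), (4, 6, 3, 3),
  (5, 0, 1, 3), (5, 1, 2, 2), (5, 2, 0, 3), (5, 3, 5, 6), (5, 4, 4, 2), (5, 5, 6, 2), (5, 6, 3, 1),
  (6, 0, 0, 6), (6, 1, 5, 1), (6, 2, 6, 1), (6, 3, 4, 1), (6, 4, 2, 5), (6, 5, 1, 1), (6, 6, 3, 2)]

/-- class representatives -/
def octR : List T7 := [(0, 1, 6, 3), (0, 2, 3, 4), (0, 3, 2, 0), (1, 0, 0, 1), (1, 1, 4, 5), (1, 4, 3, 6),
  (2, 1, 4, 6), (6, 0, 0, 6)]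

theorem oct_mul : ∀ x ∈ octL, ∀ y ∈ octL, m4 x y ∈ octL := by decide +kernel

theorem oct_inv : ∀ x ∈ octL, (x.2.2.2, -x.2.1, -x.2.2.1, x.1) ∈ octL ∧
    x.1 * x.2.2.2 - x.2.1 * x.2.2.1 = 1 := by decide +kernel

theorem oct_cls : ∀ x ∈ octL, ∃ r ∈ octR, r ∈ octL ∧ ∃ y ∈ octL, m4 y r = m4 x y := by decide +kernel

theorem oct_com : ∀ x ∈ octL, ∃ r ∈ [(1, 0, 0, 1), (0, 1, 6, 3)], r ∈ octL ∧
    ∃ z ∈ [(0, 3, 2, 0), (1, 2, 6, 6), (1, 5, 1, 6)], z ∈ octL ∧ ∃ y ∈ octL,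
      m4 x (m4 z y) = m4 r (m4 y z) := by decide +kernel

theorem oct_nodup : octL.Nodup := by decide +kernel

/-- entries -/
def ent (g : SL(2, ZMod 7)) : T7 := (g 0 0, g 0 1, g 1 0, g 1 1)

theorem ent_mul (g h : SL(2, ZMod 7)) : ent (g * h) = m4 (ent g) (ent h) := by
  simp only [ent, m4, mul_ap]

theorem ent_inj {g h : SL(2, ZMod 7)} (e : ent g = ent h) : g = h := by
  simp only [ent, Prod.mk.injEq] at e
  exact ext2_iff.2 e

/-- the binary octahedral group -/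
def oct : Subgroup SL(2, ZMod 7) where
  carrier := {g | ent g ∈ octL}
  mul_mem' := fun {g h} a b => by
    change ent (g * h) ∈ octL
    rw [ent_mul]; exact oct_mul _ a _ b
  one_mem' := by change ent 1 ∈ octL; decide +kernel
  inv_mem' := fun {g} a => by
    change ent g⁻¹ ∈ octL
    simp only [ent, inv_00, inv_01, inv_10, inv_11]
    exact (oct_inv _ a).1

theorem not_hp_sl27 : ¬ HP SL(2, ZMod 7) := fun h => by
  have h1 : ∀ x ∈ octL, ∃ g : oct, ent g = x := fun x hx => ⟨⟨mk2 _ _ _ _ (oct_inv x hx).2, hx⟩, rfl⟩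
  choose! el hel using h1
  have key : ∀ {X : Type} (f : oct → X) (R : List T7), (∀ z, ∃ r ∈ R, f (el r) = z) → Nat.card X ≤ R.length :=
    fun f R hR => by
      have := Nat.card_le_card_of_surjective (fun i : Fin R.length => f (el (R.get i))) fun z => by
        obtain ⟨r, hr, e⟩ := hR z
        obtain ⟨i, rfl⟩ := List.get_of_mem hr
        exact ⟨i, e⟩
      rwa [Nat.card_fin] at this
  have h2 := Nat.card_le_card_of_injective (fun i : Fin octL.length => el (octL.get i)) fun i j e =>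
    List.nodup_iff_injective_get.1 oct_nodup (by
      rw [← hel _ (List.get_mem _ i), ← hel _ (List.get_mem _ j)]; exact congrArg (fun g : oct => ent g) e)
  have h3 := key ConjClasses.mk octR fun z => by
    obtain ⟨g, rfl⟩ := ConjClasses.mk_surjective z
    obtain ⟨r, hr, hr', y, hy, e⟩ := oct_cls _ g.2
    refine ⟨r, hr, ConjClasses.mk_eq_mk_iff_isConj.2 (isConj_iff.2 ⟨el y, mul_inv_eq_iff_eq_mul.2
      (Subtype.ext (ent_inj ?_))⟩)⟩
    rw [coe_mul, coe_mul, ent_mul, ent_mul, hel _ hy, hel _ hr', e]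
  have h4 := key (QuotientGroup.mk : oct → oct ⧸ _root_.commutator oct) [(1, 0, 0, 1), (0, 1, 6, 3)] fun z => by
    obtain ⟨g, rfl⟩ := QuotientGroup.mk_surjective z
    obtain ⟨r, hr, hr', z, -, hz, y, hy, e⟩ := oct_com _ g.2
    have e' : g * (el z * el y) = el r * (el y * el z) := Subtype.ext (ent_inj (by
      simp only [coe_mul, ent_mul, hel _ hy, hel _ hr', hel _ hz, e]))
    refine ⟨r, hr, QuotientGroup.eq.2 ?_⟩
    rw [eq_mul_inv_of_mul_eq e', ← mul_assoc, inv_mul_cancel_left, mul_inv_rev, ← mul_assoc]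
    exact commutator_mem_commutator (mem_top _) (mem_top _)
  have h5 := (h oct fun e => absurd (show ent (uu 1) ∈ octL from e.ge (mem_top _)) (by decide +kernel)).card_le h4
  rw [Nat.card_fin] at h2
  change 48 ≤ _ at h2
  change _ ≤ 8 at h3
  change _ ≤ _ + 2 + 2 ^ 2 at h5
  omega

end CfsgLib.Acd
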